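import Cfsg.Agent.H186.OT.Iface

/-!
# S2539: `S_F = ∅`, the TI property on the concrete level (helper186)

`ti0` : `t ∈ T`, `f ∈ F`, `f t f⁻¹ ∈ T`, `t ∉ Z(F)` imply `f ∈ N(T)` (input: LT2).
-/

set_option autoImplicit false

namespace Cfsg.Agent.H186.OT

open Subgroup Cfsg.Lie Cfsg.Agent.H412.OT

universe u

variable {D : ChevalleyDatum} {K : Type u} [Field K] {F : Subgroup (GL D.Idx K)}

theorem tor_comm (hD : Cfsg.Agent.ChevalleyStructure.Elts.InList D) {s t : GL D.Idx K} (hs : s ∈ D.diagonalSubgroup K)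
    (ht : t ∈ D.diagonalSubgroup K) : s * t = t * s := by
  apply Units.ext
  rw [Units.val_mul, Units.val_mul, coe_tor hD hs, coe_tor hD ht, Matrix.diagonal_mul_diagonal,
    Matrix.diagonal_mul_diagonal]
  congr 1
  funext i
  exact mul_comm _ _

/-- the TI property modulo the centre, on the concrete level -/
theorem ti0 (hD : Cfsg.Agent.ChevalleyStructure.Elts.InList D) (h : MinBad D K F) (he : SF D K F = ∅)
    (lt2 : ∀ g ∈ F, (∀ t ∈ D.diagonalSubgroup K, g * t * g⁻¹ ∈ normalizer (D.diagonalSubgroup K : Set (GL D.Idx K))) →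
      g ∈ normalizer (D.diagonalSubgroup K : Set (GL D.Idx K)))
    {t f : GL D.Idx K} (ht : t ∈ D.diagonalSubgroup K) (hf : f ∈ F) (hft : f * t * f⁻¹ ∈ D.diagonalSubgroup K)
    (hz : t ∉ Zf F) : f ∈ normalizer (D.diagonalSubgroup K : Set (GL D.Idx K)) := by
  set C : Subgroup (GL D.Idx K) := F ⊓ centralizer {f * t * f⁻¹} with hC
  have hmem : ∀ x, x ∈ C ↔ x ∈ F ∧ x * (f * t * f⁻¹) = (f * t * f⁻¹) * x := fun x => by
    rw [hC, mem_inf, mem_centralizer_iff]
    constructor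
    · exact fun h1 => ⟨h1.1, (h1.2 _ rfl).symm⟩
    · rintro ⟨h1, h2⟩
      refine ⟨h1, ?_⟩
      rintro y rfl
      exact h2.symm
  have hT : D.diagonalSubgroup K ≤ C := fun s hs => (hmem s).2 ⟨h.tor hs, tor_comm hD hs hft⟩
  have hlt : C < F := by
    refine lt_of_le_of_ne inf_le_left fun heq => hz ?_
    refine mem_Zf.2 ⟨h.tor ht, fun x hx => ?_⟩
    have h1 : f * x * f⁻¹ ∈ C := by
      rw [heq]
      exact mul_mem (mul_mem hf hx) (inv_mem hf)
    have h2 := ((hmem _).1 h1).2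
    have h3 : f * (x * t) * f⁻¹ = f * (t * x) * f⁻¹ := by
      calc f * (x * t) * f⁻¹ = f * x * f⁻¹ * (f * t * f⁻¹) := by group
        _ = f * t * f⁻¹ * (f * x * f⁻¹) := h2
        _ = f * (t * x) * f⁻¹ := by group
    exact mul_left_cancel (mul_right_cancel h3)
  have hN := MinBad.le_norm h he hT hlt
  refine lt2 f hf fun s hs => hN ((hmem _).2 ⟨mul_mem (mul_mem hf (h.tor hs)) (inv_mem hf), ?_⟩)
  calc f * s * f⁻¹ * (f * t * f⁻¹) = f * (s * t) * f⁻¹ := by group
    _ = f * (t * s) * f⁻¹ := by rw [tor_comm hD hs ht]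
    _ = f * t * f⁻¹ * (f * s * f⁻¹) := by group

end Cfsg.Agent.H186.OT
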