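import Cfsg.Agent.H712.OT.ConcEven
import Cfsg.Agent.H214.OT.Env

/-!
# S2539, `q` even, `S_F = ∅`: the environment of part 4.4 (helper186)
-/

set_option autoImplicit false

namespace Cfsg.Agent.H186.OT

open Subgroup Cfsg.Lie Cfsg.Lie.ChevalleyDatum Cfsg.Agent.H412.OT Cfsg.Agent.H712.OT

universe u

variable {D : ChevalleyDatum} {K : Type u} [Field K] {F : Subgroup (GL D.Idx K)}

theorem exists_env [Fintype K] {l : ℕ} {Mc : CoxeterMatrix (Fin l)} {k : ℕ} (d : Dat D K F l Mc k) :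
    ∃ L : Subgroup (F ⧸ center F), H214.OT.Env d.ctx L := by
  obtain ⟨L, h1, h2, h3, h4, h5, h6⟩ := d.core.main
  exact ⟨L, ⟨rfl, d.core, h1, h2, h3, h4, h5, h6⟩⟩

end Cfsg.Agent.H186.OT
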