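import Cfsg.Agent.H412.OT.Defs
import Cfsg.Agent.H298.OT.Two

/-!
# S2539: interface between the concrete layer and the group theory (helper186)

* `NoEl A l` : for `g ∉ N(A)` the group `N(A) ∩ A^g` has no element of order `l` (end games of helper336 / helper214);
* `Zf F = F ∩ C(F)`, `Psi D K F` : the roots trivial on `Zf F`;
* `NoElF D K F l` : the concrete form of `NoEl` modulo the centre; `NoElF.noEl` : the translation to `F / Z(F)`;
* `MinBad.le_norm` : `S_F = ∅`: every proper overgroup of `T` in `F` normalises `T`.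
-/

set_option autoImplicit false

namespace Cfsg.Agent.H186.OT

open Subgroup Cfsg.Lie Cfsg.Agent.H412.OT

universe u

/-- For `g ∉ N(A)` the group `N(A) ∩ A^g` has no element of order `l`. -/
def NoEl {G : Type*} [Group G] (A : Subgroup G) (l : ℕ) : Prop :=
  ∀ g : G, g ∉ normalizer (A : Set G) → ∀ m ∈ normalizer (A : Set G), g * m * g⁻¹ ∈ A → m ^ l = 1 → m = 1

/-- The centre of `F` as a subgroup of the ambient group. -/
def Zf {G : Type*} [Group G] (F : Subgroup G) : Subgroup G := F ⊓ centralizer (F : Set G)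

theorem mem_Zf {G : Type*} [Group G] {F : Subgroup G} {z : G} :
    z ∈ Zf F ↔ z ∈ F ∧ ∀ x ∈ F, x * z = z * x := by
  rw [Zf, mem_inf, mem_centralizer_iff]
  rfl

theorem coe_mem_Zf {G : Type*} [Group G] {F : Subgroup G} {z : F} : (z : G) ∈ Zf F ↔ z ∈ center F := by
  rw [mem_Zf, mem_center_iff]
  exact ⟨fun h x => Subtype.ext (h.2 x x.2), fun h => ⟨z.2, fun x hx => congrArg Subtype.val (h ⟨x, hx⟩)⟩⟩

section Conc

variable (D : ChevalleyDatum) (K : Type u) [Field K]

/-- The roots that are trivial on the centre of `F`. -/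
def Psi (F : Subgroup (GL D.Idx K)) : Set ℕ := {a | a < D.nroots ∧ ∀ z ∈ Zf F, chi D K z a = 1}

/-- For `g ∈ F - N(T)` the group `N_F(T) ∩ T^g` has no element of order `l` modulo `Z(F)`. -/
def NoElF (F : Subgroup (GL D.Idx K)) (l : ℕ) : Prop :=
  ∀ g ∈ F, g ∉ normalizer (D.diagonalSubgroup K : Set (GL D.Idx K)) →
    ∀ m ∈ F, m ∈ normalizer (D.diagonalSubgroup K : Set (GL D.Idx K)) →
      g * m * g⁻¹ ∈ D.diagonalSubgroup K → m ^ l ∈ Zf F → m ∈ Zf F

end Conc

variable {D : ChevalleyDatum} {K : Type u} [Field K] {F : Subgroup (GL D.Idx K)}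

/-- Normalisers in `F`. -/
theorem mem_normalizer_subgroupOf (hT : D.diagonalSubgroup K ≤ F) {x : F} :
    x ∈ normalizer (((D.diagonalSubgroup K).subgroupOf F : Subgroup F) : Set F) ↔
      (x : GL D.Idx K) ∈ normalizer (D.diagonalSubgroup K : Set (GL D.Idx K)) := by
  rw [mem_normalizer_iff, mem_normalizer_iff]
  constructor
  · intro h t
    constructor
    · intro ht
      exact (h ⟨t, hT ht⟩).1 ht
    · intro ht
      have h1 : t ∈ F := by
        have h2 : (x : GL D.Idx K)⁻¹ * (x * t * (x : GL D.Idx K)⁻¹) * x = t := by group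
        rw [← h2]
        exact mul_mem (mul_mem (inv_mem x.2) (hT ht)) x.2
      exact (h ⟨t, h1⟩).2 ht
  · intro h t
    exact h t

theorem NoElF.noEl {l : ℕ} (hT : D.diagonalSubgroup K ≤ F) (h : NoElF D K F l)
    (hc : H298.OT.Ctx ((D.diagonalSubgroup K).subgroupOf F)) :
    NoEl (((D.diagonalSubgroup K).subgroupOf F).map (QuotientGroup.mk' (center F))) l := by
  intro g hg m hm hgm hml
  obtain ⟨g, rfl⟩ := QuotientGroup.mk'_surjective _ g
  obtain ⟨m, rfl⟩ := QuotientGroup.mk'_surjective _ m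
  rw [hc.mk_mem_normalizer_iff, mem_normalizer_subgroupOf hT] at hg hm
  rw [← map_inv, ← map_mul, ← map_mul, hc.mk_mem_iff] at hgm
  rw [← map_pow, H298.OT.Ctx.mk_eq_one_iff, ← coe_mem_Zf] at hml
  rw [H298.OT.Ctx.mk_eq_one_iff, ← coe_mem_Zf]
  exact h g g.2 hg m m.2 hm hgm hml

/-- `S_F = ∅`: the proper overgroups of `T` in `F` normalise `T`. -/
theorem MinBad.le_norm (h : MinBad D K F) (he : SF D K F = ∅) {H : Subgroup (GL D.Idx K)}
    (hT : D.diagonalSubgroup K ≤ H) (hH : H < F) : H ≤ normalizer (D.diagonalSubgroup K : Set (GL D.Idx K)) := by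
  have h1 : SF D K H = ∅ := Set.subset_empty_iff.1 ((SF_mono hH.le).trans he.subset)
  have h2 : DF D K H = ⊥ := by
    rw [DF, h1]
    simp
  intro x hx
  obtain ⟨d, hd, n, -, hn, rfl⟩ := h.min H hT hH x hx
  rw [h2, mem_bot] at hd
  rw [hd, one_mul]
  exact hn

theorem MinBad.not_le_norm (h : MinBad D K F) : ¬ F ≤ normalizer (D.diagonalSubgroup K : Set (GL D.Idx K)) := by
  intro h1
  exact h.bad fun x hx => ⟨1, one_mem _, x, hx, h1 hx, (one_mul x).symm⟩

end Cfsg.Agent.H186.OT
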