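import Mathlib

/-!
# The Laurent trick (helper186, after helper249), for S2539

* `IsLaurent a D f` : `f : Kˣ → K` is a Laurent polynomial with exponents in `[a, a + D]`;
* `IsLaurent.eq_top` : a subgroup of `Kˣ` containing all `c` with `f c ≠ 0` is everything (`f 1 ≠ 0`, `D` small);
* `fix_of_laurent` : a one-parameter group `λ : Kˣ →* End V` with Laurent matrix coefficients permuting an independent
  family of nonzero subspaces fixes every member.
-/

set_option autoImplicit false

namespace Cfsg.Agent.H186.OT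

open Polynomial

universe u v w

variable {K : Type u} [Field K]

/-- `f : Kˣ → K` is a Laurent polynomial with exponents in `[a, a + D]`. -/
def IsLaurent (a : ℤ) (D : ℕ) (f : Kˣ → K) : Prop :=
  ∃ p : K[X], p.natDegree ≤ D ∧ ∀ c : Kˣ, f c = ((c ^ a : Kˣ) : K) * p.eval (c : K)

theorem IsLaurent.zero (a : ℤ) (D : ℕ) : IsLaurent a D (fun _ : Kˣ => (0 : K)) :=
  ⟨0, by simp, fun c => by simp⟩

theorem IsLaurent.add {a : ℤ} {D : ℕ} {f g : Kˣ → K} (hf : IsLaurent a D f) (hg : IsLaurent a D g) :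
    IsLaurent a D (fun c => f c + g c) := by
  obtain ⟨p, hp, hpf⟩ := hf
  obtain ⟨r, hr, hrg⟩ := hg
  exact ⟨p + r, (natDegree_add_le _ _).trans (max_le hp hr), fun c => by
    change f c + g c = _
    rw [hpf, hrg, eval_add, mul_add]⟩

theorem IsLaurent.const_mul {a : ℤ} {D : ℕ} {f : Kˣ → K} (hf : IsLaurent a D f) (x : K) :
    IsLaurent a D (fun c => x * f c) := by
  obtain ⟨p, hp, hpf⟩ := hf
  refine ⟨C x * p, (natDegree_C_mul_le _ _).trans hp, fun c => ?_⟩
  change x * f c = _
  rw [hpf, eval_mul, eval_C]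
  ring

theorem IsLaurent.mul_const {a : ℤ} {D : ℕ} {f : Kˣ → K} (hf : IsLaurent a D f) (x : K) :
    IsLaurent a D (fun c => f c * x) := by
  simpa only [mul_comm] using hf.const_mul x

theorem IsLaurent.sum {a : ℤ} {D : ℕ} {ι : Type*} (s : Finset ι) {f : ι → Kˣ → K} (hf : ∀ i ∈ s, IsLaurent a D (f i)) :
    IsLaurent a D (fun c => ∑ i ∈ s, f i c) := by
  classical
  induction s using Finset.induction_on with
  | empty => simpa using IsLaurent.zero a D
  | insert i s hi ih =>
      simp only [Finset.sum_insert hi]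
      exact (hf i (Finset.mem_insert_self _ _)).add (ih fun j hj => hf j (Finset.mem_insert_of_mem hj))

/-- a monomial -/
theorem IsLaurent.zpow {a : ℤ} {D : ℕ} {k : ℤ} (h1 : a ≤ k) (h2 : k ≤ a + D) :
    IsLaurent a D (fun c : Kˣ => ((c ^ k : Kˣ) : K)) := by
  refine ⟨X ^ (k - a).toNat, (natDegree_X_pow_le _).trans (by omega), fun c => ?_⟩
  have hk : a + ((k - a).toNat : ℤ) = k := by omega
  change ((c ^ k : Kˣ) : K) = _
  rw [eval_pow, eval_X, ← Units.val_pow_eq_pow_val, ← Units.val_mul, ← zpow_natCast, ← zpow_add, hk]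

theorem IsLaurent.mono {a b : ℤ} {D E : ℕ} {f : Kˣ → K} (hf : IsLaurent a D f) (h1 : b ≤ a) (h2 : a + D ≤ b + E) :
    IsLaurent b E f := by
  obtain ⟨p, hp, hpf⟩ := hf
  refine ⟨X ^ (a - b).toNat * p, ?_, fun c => ?_⟩
  · refine (natDegree_mul_le).trans ?_
    have := natDegree_X_pow_le (R := K) (a - b).toNat
    omega
  · have hk : b + ((a - b).toNat : ℤ) = a := by omega
    rw [hpf, eval_mul, eval_pow, eval_X, ← mul_assoc, ← Units.val_pow_eq_pow_val, ← Units.val_mul, ← zpow_natCast,
      ← zpow_add, hk]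

/-- at most `D` zeros -/
theorem IsLaurent.card_zeros [Fintype K] [DecidableEq K] {a : ℤ} {D : ℕ} {f : Kˣ → K} (hf : IsLaurent a D f)
    {c₀ : Kˣ} (h0 : f c₀ ≠ 0) : (Finset.univ.filter fun c : Kˣ => f c = 0).card ≤ D := by
  obtain ⟨p, hp, hpf⟩ := hf
  have hp0 : p ≠ 0 := by
    rintro rfl
    exact h0 (by rw [hpf]; simp)
  refine le_trans ?_ ((card_roots' p).trans hp)
  rw [← Finset.card_image_of_injective (Finset.univ.filter fun c : Kˣ => f c = 0) Units.val_injective]
  refine le_trans (Finset.card_le_card (t := p.roots.toFinset) ?_) (Multiset.toFinset_card_le _)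
  intro x hx
  obtain ⟨c, hc, rfl⟩ := Finset.mem_image.1 hx
  rw [Multiset.mem_toFinset, mem_roots hp0, IsRoot.def]
  have h1 := (Finset.mem_filter.1 hc).2
  rw [hpf] at h1
  exact (mul_eq_zero.1 h1).resolve_left (Units.ne_zero _)

/-- a subgroup containing all `c` with `f c ≠ 0` is everything -/
theorem IsLaurent.eq_top [Fintype K] {a : ℤ} {D s : ℕ} {f : Kˣ → K} (hf : IsLaurent a D f) {c₀ : Kˣ} (h0 : f c₀ ≠ 0)
    (hs : ∀ d : ℕ, d ∣ Fintype.card K - 1 → d ≠ 1 → s ≤ d)
    (hD : s * D < (s - 1) * (Fintype.card K - 1))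
    (H : Subgroup Kˣ) (hH : ∀ c, f c ≠ 0 → c ∈ H) : H = ⊤ := by
  classical
  by_contra hne
  have hcard : Fintype.card Kˣ = Fintype.card K - 1 := Fintype.card_units K
  have hidx : s ≤ H.index := by
    refine hs _ ?_ (fun h => hne (Subgroup.index_eq_one.1 h))
    rw [← hcard, ← Nat.card_eq_fintype_card]
    exact H.index_dvd_card
  have hmul : Nat.card H * H.index = Fintype.card K - 1 := by
    rw [← hcard, ← Nat.card_eq_fintype_card]
    exact H.card_mul_index
  have h1 := hf.card_zeros h0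
  have h2 : (Finset.univ.filter fun c : Kˣ => ¬ f c = 0).card ≤ Nat.card H := by
    have hc2 : Nat.card H = (Finset.univ.filter fun c : Kˣ => c ∈ H).card := by
      rw [Nat.card_eq_fintype_card, Fintype.card_subtype]
    rw [hc2]
    refine Finset.card_le_card fun c hc => ?_
    exact Finset.mem_filter.2 ⟨Finset.mem_univ _, hH c (Finset.mem_filter.1 hc).2⟩
  have h3 : (Finset.univ.filter fun c : Kˣ => f c = 0).card + (Finset.univ.filter fun c : Kˣ => ¬ f c = 0).card
      = Fintype.card K - 1 := by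
    rw [Finset.card_filter_add_card_filter_not, Finset.card_univ, hcard]
  set n := Fintype.card K - 1 with hn
  have h4 : n ≤ D + Nat.card H := by omega
  have h5 : s * Nat.card H ≤ n := by
    rw [← hmul, mul_comm]
    exact Nat.mul_le_mul_left _ hidx
  have h6 : s * n ≤ s * D + n := by
    calc s * n ≤ s * (D + Nat.card H) := Nat.mul_le_mul_left _ h4
      _ = s * D + s * Nat.card H := by ring
      _ ≤ s * D + n := by omega
  have h7 : (s - 1) * n = s * n - n := by rw [Nat.sub_mul, one_mul]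
  omega

/-- **The Laurent trick.** -/
theorem fix_of_laurent [Fintype K] {V : Type v} [AddCommGroup V] [Module K V] {a : ℤ} {D s : ℕ}
    (hs : ∀ d : ℕ, d ∣ Fintype.card K - 1 → d ≠ 1 → s ≤ d) (hD : s * D < (s - 1) * (Fintype.card K - 1))
    (lam : Kˣ →* Module.End K V)
    (hL : ∀ (φ : Module.Dual K V) (x : V), IsLaurent a D (fun c => φ (lam c x)))
    {ι : Type w} (W : ι → Submodule K V) (hind : iSupIndep W) (hne : ∀ i, W i ≠ ⊥)
    (hperm : ∀ c i, ∃ j, (W i).map (lam c) = W j) (c : Kˣ) (i : ι) : (W i).map (lam c) = W i := by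
  -- the stabiliser of `W i`
  let H : Subgroup Kˣ :=
    { carrier := {c | (W i).map (lam c) = W i}
      one_mem' := by
        change (W i).map (lam 1) = W i
        rw [map_one]
        exact Submodule.map_id _
      mul_mem' := by
        intro x y hx hy
        change (W i).map (lam (x * y)) = W i
        rw [map_mul, Module.End.mul_eq_comp, Submodule.map_comp, hy, hx]
      inv_mem' := by
        intro x hx
        change (W i).map (lam x⁻¹) = W i
        conv_lhs => rw [← (show (W i).map (lam x) = W i from hx)]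
        rw [← Submodule.map_comp, ← Module.End.mul_eq_comp, ← map_mul, inv_mul_cancel, map_one]
        exact Submodule.map_id _ }
  obtain ⟨x, hx, hx0⟩ := (Submodule.ne_bot_iff _).1 (hne i)
  have hxn : x ∉ ⨆ j, ⨆ _ : j ≠ i, W j := fun h => hx0 ((Submodule.disjoint_def.1 (hind i)) x hx h)
  obtain ⟨φ, hφx, hφ⟩ := Submodule.exists_le_ker_of_notMem hxn
  have hH : H = ⊤ := by
    refine (hL φ x).eq_top (c₀ := 1) ?_ hs hD H fun c hc => ?_
    · simpa using hφx
    · obtain ⟨j, hj⟩ := hperm c i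
      by_cases hji : j = i
      · subst hji
        exact hj
      · exfalso
        apply hc
        have h1 : lam c x ∈ W j := hj ▸ Submodule.mem_map_of_mem hx
        have h2 : lam c x ∈ ⨆ j, ⨆ _ : j ≠ i, W j := (le_iSup₂_of_le (f := fun j (_ : j ≠ i) => W j) j hji le_rfl) h1
        exact LinearMap.mem_ker.1 (hφ h2)
  have : c ∈ H := hH ▸ Subgroup.mem_top c
  exact this

/-- `q ≥ 13`, windows `D ≤ 5`: the arithmetical hypotheses with `s = 2`. -/
theorem arith_two {n D : ℕ} (hD : 2 * D < n) :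
    (∀ d : ℕ, d ∣ n → d ≠ 1 → 2 ≤ d) ∧ 2 * D < (2 - 1) * n := by
  refine ⟨fun d hd h1 => ?_, by omega⟩
  have : d ≠ 0 := by
    rintro rfl
    have := Nat.eq_zero_of_zero_dvd hd
    omega
  omega

/-- the Laurent trick with the simple condition `2 D < q - 1` -/
theorem fix_of_laurent' [Fintype K] {V : Type v} [AddCommGroup V] [Module K V] {a : ℤ} {D : ℕ}
    (hD : 2 * D < Fintype.card K - 1)
    (lam : Kˣ →* Module.End K V)
    (hL : ∀ (φ : Module.Dual K V) (x : V), IsLaurent a D (fun c => φ (lam c x)))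
    {ι : Type w} (W : ι → Submodule K V) (hind : iSupIndep W) (hne : ∀ i, W i ≠ ⊥)
    (hperm : ∀ c i, ∃ j, (W i).map (lam c) = W j) (c : Kˣ) (i : ι) : (W i).map (lam c) = W i :=
  fix_of_laurent (arith_two hD).1 (arith_two hD).2 lam hL W hind hne hperm c i

end Cfsg.Agent.H186.OT
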