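import Cfsg.Agent.H48.OT.PsiIrr
import Cfsg.Agent.H194.OT.RankOneEnd

/-!
# S2539, `S_F = ∅`: two linearly independent, non-orthogonal roots in `Ψ` (helper186)
-/

set_option autoImplicit false

namespace Cfsg.Agent.H186.OT

open Subgroup Cfsg.Lie Cfsg.Agent.H412.OT

universe u

variable {D : ChevalleyDatum} {K : Type u} [Field K] {F : Subgroup (GL D.Idx K)}

theorem exists_pair [Fintype K] {p : ℕ} (hy : Hyp K p D) (h : MinBad D K F) (he : SF D K F = ∅)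
    (lt2 : ∀ g ∈ F, (∀ t ∈ D.diagonalSubgroup K, g * t * g⁻¹ ∈ normalizer (D.diagonalSubgroup K : Set (GL D.Idx K))) →
      g ∈ normalizer (D.diagonalSubgroup K : Set (GL D.Idx K)))
    (cent : ∀ x ∈ F, (∀ t ∈ D.diagonalSubgroup K, x * t = t * x) → x ∈ D.diagonalSubgroup K)
    (hC : F ≤ GS D K (Psi D K F)) (hne : (Psi D K F).Nonempty) :
    ∃ a ∈ Psi D K F, ∃ b ∈ Psi D K F, b ≠ a ∧ b ≠ D.neg a ∧ pr D a b ≠ 0 := by
  by_contra hno
  have h0 : ∀ a ∈ Psi D K F, ∀ b ∈ Psi D K F, b ≠ a → b ≠ D.neg a → pr D a b = 0 := by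
    intro a ha b hb h1 h2
    by_contra h3
    exact hno ⟨a, ha, b, hb, h1, h2, h3⟩
  obtain ⟨a, ha⟩ := hne
  by_cases hr : Psi D K F ⊆ {a, D.neg a}
  · exact H194.OT.rank_one_false hy h he hC ha.1 hr
  · rw [Set.not_subset] at hr
    obtain ⟨b, hb, hb'⟩ := hr
    simp only [Set.mem_insert_iff, Set.mem_singleton_iff, not_or] at hb'
    refine H48.OT.psi_irr hy h he lt2 cent hC (P₁ := Psi D K F ∩ {a, D.neg a}) (P₂ := Psi D K F \ {a, D.neg a})
      ⟨a, ha, by simp⟩ ⟨b, hb, by simpa [not_or] using hb'⟩ (Set.inter_union_sdiff _ _) ?_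
    rintro r ⟨hr1, hr2⟩ s ⟨hs1, hs2⟩
    simp only [Set.mem_insert_iff, Set.mem_singleton_iff, not_or] at hr2 hs2
    rcases hr2 with rfl | rfl
    · exact h0 r hr1 s hs1 hs2.1 hs2.2
    · exact h0 _ hr1 s hs1 hs2.2 (by rw [H428.OT.neg_neg' hy.inList ha.1]; exact hs2.1)

end Cfsg.Agent.H186.OT
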