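import Cfsg.Agent.H544.OT.Root

/-!
# S2539, END_l, R7: the orders of the elements of `M / T` are less than `3 ^ 8` (helper186)
-/

set_option autoImplicit false

namespace Cfsg.Agent.H186.OT

open Subgroup Cfsg.Agent.H712.OT Cfsg.Agent.H214.OT Cfsg.Agent.H544.OT Polynomial

universe u v w

/-- an injective endomorphism `f` of a nonzero space of dimension at most 8 over `𝔽₃`: `f ^ j = 1`, `1 ≤ j < 3 ^ 8` -/
theorem exists_pow_eq_one {V : Type*} [AddCommGroup V] [Module (ZMod 3) V] [FiniteDimensional (ZMod 3) V]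
    [Nontrivial V] (hV : Module.finrank (ZMod 3) V ≤ 8) (f : V →ₗ[ZMod 3] V) (hf : Function.Injective f) :
    ∃ j : ℕ, 1 ≤ j ∧ j < 3 ^ 8 ∧ f ^ j = 1 := by
  classical
  have hu : IsUnit f := (Module.End.isUnit_iff f).2 ⟨hf, LinearMap.surjective_of_injective hf⟩
  set n := Module.finrank (ZMod 3) V with hn
  have hmon := LinearMap.charpoly_monic f
  have hdeg : f.charpoly.natDegree = n := LinearMap.charpoly_natDegree f
  have hn0 : 0 < n := Module.finrank_pos
  have hne1 : f.charpoly ≠ 1 := by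
    intro h
    rw [h, natDegree_one] at hdeg
    omega
  -- the remainders
  let r : ℕ → (ZMod 3)[X] := fun k => (X ^ k) %ₘ f.charpoly
  have hr : ∀ k, aeval f (r k) = f ^ k := by
    intro k
    have h1 := modByMonic_add_div (X ^ k : (ZMod 3)[X]) f.charpoly
    have h2 : aeval f (X ^ k : (ZMod 3)[X]) = f ^ k := by simp
    rw [← h2]
    conv_rhs => rw [← h1]
    rw [map_add, map_mul, LinearMap.aeval_self_charpoly, zero_mul, add_zero]
  have hr0 : ∀ k, r k ≠ 0 := by
    intro k h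
    have h1 := hr k
    rw [h, map_zero] at h1
    exact (hu.pow k).ne_zero h1.symm
  have hrd : ∀ k, r k ∈ degreeLT (ZMod 3) n := by
    intro k
    rw [mem_degreeLT, ← hdeg, ← degree_eq_natDegree hmon.ne_zero]
    exact degree_modByMonic_lt _ hmon
  have hcard : Nat.card (degreeLT (ZMod 3) n) = 3 ^ n := by
    rw [Nat.card_congr (degreeLTEquiv (ZMod 3) n).toEquiv]
    simp
  have hfin : Finite (degreeLT (ZMod 3) n) := Finite.of_equiv _ (degreeLTEquiv (ZMod 3) n).toEquiv.symm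
  have := Fintype.ofFinite (degreeLT (ZMod 3) n)
  let g : Fin (3 ^ n) → {x : degreeLT (ZMod 3) n // x ≠ 0} := fun k =>
    ⟨⟨r k, hrd k⟩, fun h => hr0 k (congrArg Subtype.val h)⟩
  have hlt : Fintype.card {x : degreeLT (ZMod 3) n // x ≠ 0} < Fintype.card (Fin (3 ^ n)) := by
    rw [Fintype.card_fin, ← hcard, Nat.card_eq_fintype_card]
    exact Fintype.card_subtype_lt (x := 0) (by simp)
  obtain ⟨a, b, hab, he⟩ := Fintype.exists_ne_map_eq_of_card_lt g hlt
  have he' : f ^ (a : ℕ) = f ^ (b : ℕ) := by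
    rw [← hr, ← hr]
    have h1 : r a = r b := congrArg (fun x => (x.1 : (ZMod 3)[X])) he
    rw [h1]
  have hle : 3 ^ n ≤ 3 ^ 8 := Nat.pow_le_pow_right (by norm_num) hV
  have key : ∀ a b : Fin (3 ^ n), (a : ℕ) < b → f ^ (a : ℕ) = f ^ (b : ℕ) → ∃ j : ℕ, 1 ≤ j ∧ j < 3 ^ 8 ∧ f ^ j = 1 := by
    intro a b h1 h2
    refine ⟨b - a, by omega, by have := b.2; omega, ?_⟩
    have h3 : f ^ (b : ℕ) = f ^ (a : ℕ) * f ^ ((b : ℕ) - a) := by
      rw [← pow_add]
      congr 1
      omega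
    rw [h3] at h2
    exact ((hu.pow (a : ℕ)).mul_right_inj.1 (by rw [mul_one]; exact h2)).symm
  rcases lt_or_gt_of_ne (fun h => hab (Fin.ext h)) with h1 | h1
  · exact key a b h1 he'
  · exact key b a h1 he'.symm

variable {K : Type u} [Field K] [Fintype K] {Y : Type v} [Group Y] {T M : Subgroup Y}
  {Φ : Type w} {Ψ : Set Φ} {P : Φ → Φ → ℤ}

/-- the congruence form of R1 for `s = 3` -/
theorem mem_of_cong (X : Ctx K Y T M Φ Ψ P) (hA : A3 X) (m : M)
    (hcg : ∀ a ∈ Ψ, ∀ b ∈ Ψ, (3 : ℤ) ∣ P b (X.act m a) - P b a) : (m : Y) ∈ T := by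
  refine (X.act_T m).mpr fun a ha => ?_
  have h1 := hcg a ha a ha
  rw [X.self] at h1
  have h2 := abs_two X a (X.act m a)
  have h6 : P a (X.act m a) = 2 ∨ P a (X.act m a) = -1 := by omega
  rcases h6 with h6 | h6
  · exact (X.two _ _ h6).symm
  exfalso
  set b := X.act m a with hbdef
  have hb : b ∈ Ψ := X.act_mem _ _ ha
  obtain ⟨c, hcΨ, hcx, -⟩ := X.add a ha b hb h6
  let S : Set Φ := {a, b, c, X.neg a, X.neg b, X.neg c}
  have hSsub : S ⊆ Ψ := by
    rintro y (rfl | rfl | rfl | rfl | rfl | rfl)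
    · exact ha
    · exact hb
    · exact hcΨ
    · exact X.neg_mem _ ha
    · exact X.neg_mem _ hb
    · exact X.neg_mem _ hcΨ
  have hba : P b a = -1 := by rw [X.symm]; exact h6
  have hca : P c a = 1 := by rw [hcx, X.self, hba]; rfl
  have hcb : P c b = 1 := by rw [hcx, X.self, h6]; rfl
  have hac : P a c = 1 := by rw [X.symm]; exact hca
  have hbc : P b c = 1 := by rw [X.symm]; exact hcb
  have hPn : ∀ x y, P x (X.neg y) = - P x y := by
    intro x y
    rw [X.symm, X.P_neg, X.symm]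
  have hSn : ∀ x ∈ S, ∀ y ∈ S, P x y ≠ 0 := by
    rintro x (rfl | rfl | rfl | rfl | rfl | rfl) y (rfl | rfl | rfl | rfl | rfl | rfl) <;>
      simp only [X.P_neg, hPn, X.self, h6, hba, hca, hcb, hac, hbc] <;> decide
  have hSeq : S = Ψ := by
    by_contra hne
    obtain ⟨x, hx, y, hy, hyS, hxy⟩ := X.irred S hSsub ⟨a, Or.inl rfl⟩ hne
    simp only [S, Set.mem_insert_iff, Set.mem_singleton_iff, not_or] at hyS
    obtain ⟨n1, n2, n3, n4, n5, n6⟩ := hyS
    have s1 := small X n1 n4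
    have s2 := small X n2 n5
    have s3 := small X n3 n6
    have e1 := hcg a ha y hy
    rw [← hbdef, X.symm y b, X.symm y a] at e1
    have e2 := hcx y
    have e0 : P a y = 0 ∧ P b y = 0 ∧ P c y = 0 := by omega
    rcases hx with rfl | rfl | rfl | rfl | rfl | rfl
    · exact hxy e0.1
    · exact hxy e0.2.1
    · exact hxy e0.2.2
    · exact hxy (by rw [X.P_neg, e0.1]; rfl)
    · exact hxy (by rw [X.P_neg, e0.2.1]; rfl)
    · exact hxy (by rw [X.P_neg, e0.2.2]; rfl)
  obtain ⟨a', ha', b', hb', c', hc', -, -, h0⟩ := hA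
  rw [← hSeq] at ha' hc'
  exact hSn a' ha' c' hc' h0

/-- the roots modulo 3 as functions -/
def fn (P : Φ → Φ → ℤ) (a : Φ) : Φ → ZMod 3 := fun b => (P a b : ZMod 3)

/-- the space spanned by the roots modulo 3 -/
def sp (P : Φ → Φ → ℤ) : Submodule (ZMod 3) (Φ → ZMod 3) := Submodule.span (ZMod 3) (Set.range (fn P))

theorem sp_finrank (X : Ctx K Y T M Φ Ψ P) : FiniteDimensional (ZMod 3) (sp P) ∧ Module.finrank (ZMod 3) (sp P) ≤ 8 := by
  classical
  obtain ⟨s, hs⟩ := X.basis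
  have h1 : sp P = Submodule.span (ZMod 3) (Set.range (fun i => fn P (s i))) := by
    apply le_antisymm
    · rw [sp, Submodule.span_le]
      rintro _ ⟨a, rfl⟩
      obtain ⟨c, hc⟩ := hs a
      have h2 : fn P a = ∑ i, (c i : ZMod 3) • fn P (s i) := by
        funext x
        rw [Finset.sum_apply]
        simp only [Pi.smul_apply, smul_eq_mul]
        unfold fn
        rw [hc x]
        push_cast
        rfl
      rw [h2]
      exact Submodule.sum_mem _ fun i _ => Submodule.smul_mem _ _ (Submodule.subset_span ⟨i, rfl⟩)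
    · rw [Submodule.span_le]
      rintro _ ⟨i, rfl⟩
      exact Submodule.subset_span ⟨s i, rfl⟩
  rw [h1]
  refine ⟨FiniteDimensional.span_of_finite _ (Set.finite_range _), ?_⟩
  exact (finrank_range_le_card _).trans (by simp)

/-- **R7** -/
theorem order_le (X : Ctx K Y T M Φ Ψ P) (hA : A3 X) (m : M) : ∃ j : ℕ, 1 ≤ j ∧ j < 3 ^ 8 ∧ (m : Y) ^ j ∈ T := by
  classical
  obtain ⟨hfd, hfr⟩ := sp_finrank X
  -- the action
  let L : (Φ → ZMod 3) →ₗ[ZMod 3] (Φ → ZMod 3) := LinearMap.funLeft (ZMod 3) (ZMod 3) (X.act m⁻¹)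
  have hL : ∀ a, L (fn P a) = fn P (X.act m a) := by
    intro a
    funext b
    change ((P a (X.act m⁻¹ b) : ℤ) : ZMod 3) = ((P (X.act m a) b : ℤ) : ZMod 3)
    have h1 := act_inv_P X m a b
    rw [X.symm a, h1, X.symm b]
  have hLsp : ∀ x ∈ sp P, L x ∈ sp P := by
    have h1 : sp P ≤ (sp P).comap L := by
      conv_lhs => rw [sp]
      rw [Submodule.span_le]
      rintro _ ⟨a, rfl⟩
      change L (fn P a) ∈ sp P
      rw [hL]
      exact Submodule.subset_span ⟨_, rfl⟩
    exact h1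
  let f : sp P →ₗ[ZMod 3] sp P := L.restrict hLsp
  have hf : Function.Injective f := by
    intro x y hxy
    apply Subtype.ext
    have h1 : L x = L y := congrArg Subtype.val hxy
    exact LinearMap.funLeft_injective_of_surjective _ _ _ (X.act m⁻¹).surjective h1
  have hfn : ∀ (j : ℕ) (a : Φ) (h : fn P a ∈ sp P), ((f ^ j) ⟨fn P a, h⟩ : sp P).1 = fn P (X.act (m ^ j) a) := by
    intro j
    induction j with
    | zero => intro a h; simp
    | succ j ih =>
      intro a h
      rw [pow_succ', Module.End.mul_apply]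
      have h1 : ((f ((f ^ j) ⟨fn P a, h⟩) : sp P) : Φ → ZMod 3) = L ((f ^ j) ⟨fn P a, h⟩ : sp P).1 := rfl
      rw [h1, ih a h, hL, pow_succ' m j, map_mul, Equiv.Perm.mul_apply]
  obtain ⟨a0, ha0, -⟩ := X.rank
  have hnt : Nontrivial (sp P) := by
    refine ⟨⟨⟨fn P a0, Submodule.subset_span ⟨a0, rfl⟩⟩, 0, fun h => ?_⟩⟩
    have h1 : fn P a0 a0 = 0 := by
      have := congrArg Subtype.val h
      exact congrFun this a0
    have h2 : fn P a0 a0 = 2 := by
      unfold fn
      rw [X.self]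
      rfl
    rw [h2] at h1
    exact absurd h1 (by decide)
  obtain ⟨j, hj1, hj2, hj3⟩ := exists_pow_eq_one hfr f hf
  refine ⟨j, hj1, hj2, ?_⟩
  have h4 := mem_of_cong X hA (m ^ j) ?_
  · simpa using h4
  intro a ha b hb
  have h5 := hfn j a (Submodule.subset_span ⟨a, rfl⟩)
  rw [hj3, Module.End.one_apply] at h5
  have h6 : ((P a b : ℤ) : ZMod 3) = ((P (X.act (m ^ j) a) b : ℤ) : ZMod 3) := congrFun h5 b
  rw [ZMod.intCast_eq_intCast_iff_dvd_sub] at h6
  rw [X.symm b, X.symm b]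
  exact_mod_cast h6

end Cfsg.Agent.H186.OT
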